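import Mathlib
import Cfsg.Agent.S4667
import Cfsg.Agent.S0925
import Cfsg.Agent.H25.NormalSum
import Cfsg.Agent.H25.Codeg2
import Cfsg.Agent.H25.BlockSum2
import Cfsg.Agent.BlockLib.KG.Principal

/-!
# The `p`-regular rank of the principal block modulo a normal `p`-subgroup `Q` with `G = Q C_G(Q)`
-/

set_option autoImplicit false

namespace Cfsg.Agent.Lib.Helper8.BQ

open Cfsg Cfsg.Agent.CharLib Cfsg.Agent.BlockLib

universe u

variable {G : Type u} [Group G] [Finite G]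

/-- an element killed by two coprime exponents is trivial -/
theorem eq_one_of_pow_coprime {H : Type*} [Group H] {x : H} {a b : ℕ} (hab : Nat.Coprime a b)
    (ha : x ^ a = 1) (hb : x ^ b = 1) : x = 1 := by
  have h := pow_gcd_eq_one.mpr ⟨ha, hb⟩
  rwa [hab, pow_one] at h

/-- If `G = Q C_G(Q)` with `Q` a normal `p`-subgroup, the `p`-regular elements centralize `Q`. -/
theorem reg_mem_centralizer {p : ℕ} [Fact p.Prime] (Q : Subgroup G) [hQn : Q.Normal]
    (hQ : IsPGroup p Q) (hsup : Q ⊔ Subgroup.centralizer (Q : Set G) = ⊤) {x : G}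
    (hx : ¬ p ∣ orderOf x) : x ∈ Subgroup.centralizer (Q : Set G) := by
  have : (Subgroup.centralizer (Q : Set G)).Normal := inferInstance
  have hxs : x ∈ Q ⊔ Subgroup.centralizer (Q : Set G) := by rw [hsup]; trivial
  have hxs' : x ∈ ((Q ⊔ Subgroup.centralizer (Q : Set G) : Subgroup G) : Set G) := hxs
  rw [Subgroup.normal_mul] at hxs'
  obtain ⟨q, hq, c, hc, rfl⟩ := hxs'
  obtain ⟨k, hk⟩ := hQ ⟨q, hq⟩
  have hk' : q ^ p ^ k = 1 := by simpa using congrArg Subtype.val hk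
  rw [← QuotientGroup.eq_one_iff]
  have e0 : ((q * c : G) : G ⧸ Subgroup.centralizer (Q : Set G)) = (q : G ⧸ _) := by
    rw [QuotientGroup.mk_mul, (QuotientGroup.eq_one_iff c).mpr hc, mul_one]
  apply eq_one_of_pow_coprime (a := orderOf (q * c)) (b := p ^ k)
  · exact Nat.Coprime.pow_right k ((Nat.Prime.coprime_iff_not_dvd Fact.out).mpr hx).symm
  · rw [← QuotientGroup.mk_pow, pow_orderOf_eq_one]; rfl
  · rw [e0, ← QuotientGroup.mk_pow, hk']; rfl

/-- regular elements in the same coset of `Q` coincide -/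
theorem reg_inj {p : ℕ} [Fact p.Prime] (Q : Subgroup G) [hQn : Q.Normal]
    (hQ : IsPGroup p Q) (hsup : Q ⊔ Subgroup.centralizer (Q : Set G) = ⊤) {x y : G}
    (hx : ¬ p ∣ orderOf x) (hy : ¬ p ∣ orderOf y)
    (hxy : (x : G ⧸ Q) = (y : G ⧸ Q)) : x = y := by
  have hu : x⁻¹ * y ∈ Q := QuotientGroup.eq.mp hxy
  have hxc := reg_mem_centralizer Q hQ hsup hx
  have hcomm : Commute x (x⁻¹ * y) := by
    have := (Subgroup.mem_centralizer_iff.mp hxc) (x⁻¹ * y) hu
    exact this.symm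
  have hcxy : Commute x y := by
    have h2 : y = x * (x⁻¹ * y) := by group
    rw [h2]
    exact (Commute.refl x).mul_right hcomm
  obtain ⟨k, hk⟩ := hQ ⟨x⁻¹ * y, hu⟩
  have hk' : (x⁻¹ * y) ^ p ^ k = 1 := by simpa using congrArg Subtype.val hk
  have h1 : (x⁻¹ * y) ^ (orderOf x * orderOf y) = 1 := by
    rw [(hcxy.inv_left).mul_pow, inv_pow, pow_mul, pow_orderOf_eq_one, one_pow, inv_one, one_mul,
      mul_comm, pow_mul, pow_orderOf_eq_one, one_pow]
  have hp : p.Prime := Fact.out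
  have hcop : Nat.Coprime (orderOf x * orderOf y) (p ^ k) := by
    apply Nat.Coprime.pow_right
    exact Nat.Coprime.mul_left ((Nat.Prime.coprime_iff_not_dvd hp).mpr hx).symm
      ((Nat.Prime.coprime_iff_not_dvd hp).mpr hy).symm
  have := eq_one_of_pow_coprime hcop h1 hk'
  exact (inv_mul_eq_one.mp this)

/-- a regular element of `G ⧸ Q` has a regular lift -/
theorem reg_surj {p : ℕ} [Fact p.Prime] (Q : Subgroup G) [hQn : Q.Normal]
    (hQ : IsPGroup p Q) {q : G ⧸ Q} (hq : ¬ p ∣ orderOf q) :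
    ∃ x : G, ¬ p ∣ orderOf x ∧ (x : G ⧸ Q) = q := by
  obtain ⟨g, rfl⟩ := QuotientGroup.mk_surjective q
  have hgn : g ^ orderOf (g : G ⧸ Q) ∈ Q := by
    rw [← QuotientGroup.eq_one_iff, QuotientGroup.mk_pow, pow_orderOf_eq_one]
  obtain ⟨k, hk⟩ := hQ ⟨_, hgn⟩
  have hk' : (g ^ orderOf (g : G ⧸ Q)) ^ p ^ k = 1 := by simpa using congrArg Subtype.val hk
  have hp : p.Prime := Fact.out
  have hcop : Nat.Coprime (p ^ k) (orderOf (g : G ⧸ Q)) :=
    Nat.Coprime.pow_left k ((Nat.Prime.coprime_iff_not_dvd hp).mpr hq)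
  obtain ⟨m, hm⟩ := exists_pow_eq_self_of_coprime hcop
  refine ⟨(g ^ p ^ k) ^ m, ?_, ?_⟩
  · intro hdvd
    apply hq
    apply hdvd.trans
    apply orderOf_dvd_of_pow_eq_one
    rw [← pow_mul, ← pow_mul]
    have e : p ^ k * (m * orderOf (g : G ⧸ Q)) = orderOf (g : G ⧸ Q) * p ^ k * m := by ring
    rw [e, pow_mul, pow_mul, hk', one_pow]
  · rw [QuotientGroup.mk_pow, QuotientGroup.mk_pow, hm]

/-- inflation of an irreducible character -/
noncomputable def infl (Q : Subgroup G) [Q.Normal] (χ : IrrCharacter (G ⧸ Q)) : IrrCharacter G :=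
  ⟨fun x => (χ : G ⧸ Q → ℂ) (QuotientGroup.mk' Q x),
    isIrrCharacter_comp_of_surjective χ.2 (QuotientGroup.mk' Q) (QuotientGroup.mk'_surjective Q)⟩

theorem infl_apply (Q : Subgroup G) [Q.Normal] (χ : IrrCharacter (G ⧸ Q)) (x : G) :
    (infl Q χ : G → ℂ) x = (χ : G ⧸ Q → ℂ) (x : G ⧸ Q) := rfl

theorem infl_injective (Q : Subgroup G) [Q.Normal] : Function.Injective (infl Q) := by
  intro χ ψ h
  apply Subtype.ext
  funext q
  obtain ⟨g, rfl⟩ := QuotientGroup.mk_surjective q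
  exact congrArg (fun φ : IrrCharacter G => (φ : G → ℂ) g) h

theorem le_kerSub_infl (Q : Subgroup G) [Q.Normal] (χ : IrrCharacter (G ⧸ Q)) :
    Q ≤ H25.kerSub (infl Q χ) := by
  intro u hu
  rw [H25.mem_kerSub, infl_apply, infl_apply, (QuotientGroup.eq_one_iff u).mpr hu]
  rfl

theorem exists_infl_eq (Q : Subgroup G) [Q.Normal] (χ : IrrCharacter G)
    (h : Q ≤ H25.kerSub χ) : ∃ χ' : IrrCharacter (G ⧸ Q), infl Q χ' = χ := by
  obtain ⟨χ', hχ'⟩ := H25.exists_quotient_irr χ Q h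
  exact ⟨χ', Subtype.ext (funext fun g => hχ' g)⟩

open Classical in
/-- the sum of an irreducible character over a coset of a normal subgroup -/
theorem sum_coset [Fintype G] (Q : Subgroup G) [Q.Normal] (χ : IrrCharacter G) (x : G) :
    ∑ u : G, (if u ∈ Q then (χ : G → ℂ) (x * u) else 0) =
      if Q ≤ H25.kerSub χ then (Nat.card Q : ℂ) * (χ : G → ℂ) x else 0 := by
  split_ifs with h
  · have e : ∀ u : G, (if u ∈ Q then (χ : G → ℂ) (x * u) else 0) =
        (if u ∈ Q then (χ : G → ℂ) x else 0) := by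
      intro u
      split_ifs with hu
      · exact H25.irr_mul_of_mem_ker χ (h hu) x
      · rfl
    rw [Finset.sum_congr rfl (fun u _ => e u), ← Finset.sum_filter, Finset.sum_const,
      nsmul_eq_mul]
    congr 2
    rw [Nat.card_eq_fintype_card, Fintype.card_subtype]
  · apply H25.sum_coset_eq_zero Q χ _ x
    by_contra hcon
    push Not at hcon
    exact h (fun u hu => hcon u hu)

open Classical in
/-- block orthogonality against the cosets of `Q` -/
theorem block_sum_reg {p : ℕ} [Fact p.Prime] {M : Ideal AlgInt} (hM : IsPModular p M) [Fintype G]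
    (Q : Subgroup G) [Q.Normal] (hQ : IsPGroup p Q)
    (hsup : Q ⊔ Subgroup.centralizer (Q : Set G) = ⊤)
    (hinf : ∀ χ : IrrCharacter (G ⧸ Q),
      χ ∈ principalBlock M (G ⧸ Q) ↔ infl Q χ ∈ principalBlock M G)
    {x : G} (hx : ¬ p ∣ orderOf x) :
    ∑ᶠ χ ∈ principalBlock M G, (χ : G → ℂ) x * (χ : G → ℂ) x⁻¹ =
      (Nat.card Q : ℂ) * ∑ᶠ χ ∈ principalBlock M (G ⧸ Q),
        (χ : G ⧸ Q → ℂ) (x : G ⧸ Q) * (χ : G ⧸ Q → ℂ) (x : G ⧸ Q)⁻¹ := by
  have hxc := reg_mem_centralizer Q hQ hsup hx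
  have horth : ∀ u ∈ Q, u ≠ 1 →
      ∑ᶠ χ ∈ principalBlock M G, (χ : G → ℂ) (x * u) * (χ : G → ℂ) x⁻¹ = 0 := by
    intro u hu hu1
    obtain ⟨k, hk⟩ := (IsPGroup.iff_orderOf.mp hQ) ⟨u, hu⟩
    rw [Subgroup.orderOf_mk] at hk
    refine (Cfsg.Agent.S0925.result p M hM).2 (x * u) x u 1
      ⟨x, Subgroup.mem_centralizer_iff.mp hxc u hu, Subgroup.mem_centralizer_iff.mp hxc u hu,
        ⟨k, hk⟩, hx⟩
      ⟨x, one_mul x, Commute.one_left x, ⟨0, by simp⟩, hx⟩ ?_ _ isPBlock_principalBlock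
    intro h
    exact hu1 (isConj_one_left.mp h)
  have h1 : ∑ u : G, (if u ∈ Q then
      ∑ᶠ χ ∈ principalBlock M G, (χ : G → ℂ) (x * u) * (χ : G → ℂ) x⁻¹ else 0) =
      ∑ᶠ χ ∈ principalBlock M G, (χ : G → ℂ) x * (χ : G → ℂ) x⁻¹ := by
    rw [Finset.sum_eq_single 1]
    · simp [Q.one_mem]
    · intro u _ hu1
      split_ifs with hu
      · exact horth u hu hu1
      · rfl
    · simp
  rw [← h1]
  simp only [Cfsg.Agent.Lib.Helper23.Trunc.finsum_mem_eq_sum_filter'']
  have e1 : ∀ u : G, (if u ∈ Q then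
      ∑ χ ∈ Finset.univ.filter (· ∈ principalBlock M G), (χ : G → ℂ) (x * u) * (χ : G → ℂ) x⁻¹
      else 0) = ∑ χ ∈ Finset.univ.filter (· ∈ principalBlock M G),
        (if u ∈ Q then (χ : G → ℂ) (x * u) else 0) * (χ : G → ℂ) x⁻¹ := by
    intro u
    split_ifs with hu
    · rfl
    · simp
  rw [Finset.sum_congr rfl (fun u _ => e1 u), Finset.sum_comm]
  have e3 : ∀ χ : IrrCharacter G, ∑ u : G, (if u ∈ Q then (χ : G → ℂ) (x * u) else 0) *
      (χ : G → ℂ) x⁻¹ = if Q ≤ H25.kerSub χ then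
        (Nat.card Q : ℂ) * (χ : G → ℂ) x * (χ : G → ℂ) x⁻¹ else 0 := by
    intro χ
    rw [← Finset.sum_mul, sum_coset, ite_mul, zero_mul]
  rw [Finset.sum_congr rfl (fun χ _ => e3 χ), ← Finset.sum_filter, Finset.mul_sum]
  have e2 : (Finset.univ.filter (· ∈ principalBlock M G)).filter (fun χ => Q ≤ H25.kerSub χ) =
      (Finset.univ.filter (· ∈ principalBlock M (G ⧸ Q))).image (infl Q) := by
    ext χ
    simp only [Finset.mem_filter, Finset.mem_univ, true_and, Finset.mem_image]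
    constructor
    · rintro ⟨hB, hk⟩
      obtain ⟨χ', rfl⟩ := exists_infl_eq Q χ hk
      exact ⟨χ', (hinf χ').mpr hB, rfl⟩
    · rintro ⟨χ', hB, rfl⟩
      exact ⟨(hinf χ').mp hB, le_kerSub_infl Q χ'⟩
  rw [e2, Finset.sum_image (fun a _ b _ h => infl_injective Q h)]
  apply Finset.sum_congr rfl
  intro χ _
  rw [infl_apply, infl_apply, QuotientGroup.mk_inv, mul_assoc]

theorem pRegularPart_of_reg {H : Type*} [Group H] {p : ℕ} (χ : H → ℂ) {x : H}
    (hx : ¬ p ∣ orderOf x) : pRegularPart p χ x = χ x := by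
  simp [pRegularPart, IsPRegular, hx]

theorem pRegularPart_of_sing {H : Type*} [Group H] {p : ℕ} (χ : H → ℂ) {x : H}
    (hx : p ∣ orderOf x) : pRegularPart p χ x = 0 := by
  simp [pRegularPart, IsPRegular, hx]

open Classical in
theorem card_mul_rank {H : Type*} [Group H] [Fintype H] {p : ℕ} [Fact p.Prime] {M : Ideal AlgInt}
    (hM : IsPModular p M) (B : Set (IrrCharacter H)) (hB : IsPBlock M B) :
    (Nat.card H : ℂ) * (blockRank p B : ℂ) =
      ∑ x ∈ Finset.univ.filter (fun x : H => ¬ p ∣ orderOf x),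
        ∑ᶠ χ ∈ B, (χ : H → ℂ) x * (χ : H → ℂ) x⁻¹ := by
  rw [Cfsg.Agent.S4667.result p M hM B hB, Finset.sum_filter]
  apply Finset.sum_congr rfl
  intro x _
  by_cases hx : p ∣ orderOf x
  · rw [if_neg (not_not.mpr hx)]
    simp only [pRegularPart_of_sing _ hx, zero_mul]
    simp
  · rw [if_pos hx]
    simp only [pRegularPart_of_reg _ hx]

/-- **S4571**, given that inflation reflects membership in the principal block. -/
theorem blockRank_quot {p : ℕ} [Fact p.Prime] {M : Ideal AlgInt} (hM : IsPModular p M)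
    (Q : Subgroup G) [Q.Normal] (hQ : IsPGroup p Q)
    (hsup : Q ⊔ Subgroup.centralizer (Q : Set G) = ⊤)
    (hinf : ∀ χ : IrrCharacter (G ⧸ Q),
      χ ∈ principalBlock M (G ⧸ Q) ↔ infl Q χ ∈ principalBlock M G) :
    blockRank p (principalBlock M G) = blockRank p (principalBlock M (G ⧸ Q)) := by
  classical
  cases nonempty_fintype G
  have : Fintype (G ⧸ Q) := Fintype.ofFinite _
  have h1 := card_mul_rank hM (principalBlock M G) isPBlock_principalBlock
  have h2 := card_mul_rank hM (principalBlock M (G ⧸ Q)) isPBlock_principalBlock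
  have h3 : ∑ x ∈ Finset.univ.filter (fun x : G => ¬ p ∣ orderOf x),
      ∑ᶠ χ ∈ principalBlock M G, (χ : G → ℂ) x * (χ : G → ℂ) x⁻¹ =
      (Nat.card Q : ℂ) * ∑ q ∈ Finset.univ.filter (fun q : G ⧸ Q => ¬ p ∣ orderOf q),
        ∑ᶠ χ ∈ principalBlock M (G ⧸ Q), (χ : G ⧸ Q → ℂ) q * (χ : G ⧸ Q → ℂ) q⁻¹ := by
    rw [Finset.mul_sum]
    apply Finset.sum_nbij (fun x : G => (x : G ⧸ Q))
    · intro x hx
      simp only [Finset.mem_filter, Finset.mem_univ, true_and] at hx ⊢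
      intro hd
      exact hx (hd.trans (orderOf_map_dvd (QuotientGroup.mk' Q) x))
    · intro x hx y hy hxy
      simp only [Finset.coe_filter, Finset.mem_univ, true_and, Set.mem_ofPred_eq] at hx hy
      exact reg_inj Q hQ hsup hx hy hxy
    · intro q hq
      simp only [Finset.coe_filter, Finset.mem_univ, true_and, Set.mem_ofPred_eq] at hq
      obtain ⟨x, hx, rfl⟩ := reg_surj Q hQ hq
      exact ⟨x, by simpa using hx, rfl⟩
    · intro x hx
      simp only [Finset.mem_filter, Finset.mem_univ, true_and] at hx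
      exact block_sum_reg hM Q hQ hsup hinf hx
  rw [h3, ← h2, ← mul_assoc] at h1
  have hcard : (Nat.card Q : ℂ) * (Nat.card (G ⧸ Q) : ℂ) = (Nat.card G : ℂ) := by
    rw [← Nat.cast_mul, mul_comm, ← Subgroup.card_eq_card_quotient_mul_card_subgroup]
  rw [hcard] at h1
  have hG : (Nat.card G : ℂ) ≠ 0 := by exact_mod_cast Nat.card_pos.ne'
  exact_mod_cast mul_left_cancel₀ hG h1

end Cfsg.Agent.Lib.Helper8.BQ
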