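import Mathlib
import Cfsg.Agent.Lib.Helper2.DihedralHom
import Cfsg.Agent.Lib.Helper8.Klein
import Cfsg.Agent.Lib.Helper8.PRank

/-!
# Subgroups with a normal Sylow p-subgroup and cyclic quotient
-/

set_option autoImplicit false

namespace Cfsg.Agent.Lib.Helper8.PBC

open Cfsg.Agent.Lib.Helper8

variable {G : Type*} [Group G] [Finite G] {p : ℕ} [Fact p.Prime]

/-- data of a p-by-cyclic subgroup -/
structure Dat (p : ℕ) (H Q : Subgroup G) (c : G) : Prop where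
  hQH : Q ≤ H
  hQ : IsPGroup p Q
  hcH : c ∈ H
  hcop : (orderOf c).Coprime p
  hcN : c ∈ Subgroup.normalizer (Q : Set G)
  hgen : ∀ h ∈ H, ∃ s ∈ Q, ∃ k : ℤ, h = s * c ^ k

theorem exists_dat (H : Subgroup G) (hN : ∀ S : Sylow p ↥H, (S : Subgroup ↥H).Normal)
    (hC : ∀ (S : Sylow p ↥H) [(S : Subgroup ↥H).Normal], IsCyclic (↥H ⧸ (S : Subgroup ↥H))) :
    ∃ (Q : Subgroup G) (c : G), Dat p H Q c := by
  have hp : p.Prime := Fact.out
  let S : Sylow p ↥H := default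
  haveI := hN S
  haveI := hC S
  obtain ⟨γ, hγ⟩ := IsCyclic.exists_generator (α := ↥H ⧸ (S : Subgroup ↥H))
  obtain ⟨g, rfl⟩ := QuotientGroup.mk_surjective γ
  have hdodd : ¬ p ∣ (S : Subgroup ↥H).index := S.not_dvd_index
  obtain ⟨a, ha⟩ := IsPGroup.iff_card.mp S.2
  have hcop : (Nat.card (↥H ⧸ (S : Subgroup ↥H))).Coprime (p ^ a) := by
    apply Nat.Coprime.pow_right
    exact ((Nat.Prime.coprime_iff_not_dvd hp).mpr hdodd).symm
  obtain ⟨y, hy⟩ := (powCoprime hcop).surjective (QuotientGroup.mk g)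
  have hy' : y ^ (p ^ a) = QuotientGroup.mk g := hy
  obtain ⟨i, hi⟩ := Subgroup.mem_zpowers_iff.mp (hγ y)
  have hmk : (QuotientGroup.mk (g ^ (p ^ a)) : ↥H ⧸ (S : Subgroup ↥H)) ^ i = QuotientGroup.mk g := by
    rw [QuotientGroup.mk_pow, ← zpow_natCast, ← zpow_mul, mul_comm, zpow_mul, hi, zpow_natCast, hy']
  refine ⟨(S : Subgroup ↥H).map H.subtype, ((g ^ (p ^ a) : ↥H) : G), ?_⟩
  constructor
  · exact Subgroup.map_subtype_le _
  · exact S.2.map _
  · exact (g ^ (p ^ a) : ↥H).2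
  · rw [Subgroup.orderOf_coe]
    have h1 : (g ^ (p ^ a)) ^ (S : Subgroup ↥H).index = 1 := by
      rw [← pow_mul, ← ha, (S : Subgroup ↥H).card_mul_index, pow_card_eq_one']
    have h2 := orderOf_dvd_of_pow_eq_one h1
    exact Nat.Coprime.coprime_dvd_left h2 ((Nat.Prime.coprime_iff_not_dvd hp).mpr hdodd).symm
  · apply mem_normalizer_of_conj_mem
    rintro _ ⟨s, hs, rfl⟩
    exact ⟨g ^ (p ^ a) * s * (g ^ (p ^ a))⁻¹, (hN S).conj_mem s hs _, rfl⟩
  · intro h hh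
    obtain ⟨j, hj⟩ := Subgroup.mem_zpowers_iff.mp (hγ (QuotientGroup.mk ⟨h, hh⟩))
    refine ⟨((⟨h, hh⟩ * (g ^ (p ^ a)) ^ (-(i * j)) : ↥H) : G),
      ⟨(⟨h, hh⟩ * (g ^ (p ^ a)) ^ (-(i * j)) : ↥H), ?_, rfl⟩, i * j, ?_⟩
    · show _ ∈ (S : Subgroup ↥H)
      rw [← QuotientGroup.eq_one_iff, QuotientGroup.mk_mul, QuotientGroup.mk_zpow, zpow_neg,
        zpow_mul, hmk, hj, mul_inv_cancel]
    · simp

omit [Fact p.Prime] in
theorem card_le {H Q : Subgroup G} {c : G} (D : Dat p H Q c) :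
    Nat.card H ≤ Nat.card Q * orderOf c := by
  let f : Q × Subgroup.zpowers c → H := fun q =>
    ⟨q.1 * q.2, mul_mem (D.hQH q.1.2) (Subgroup.zpowers_le.mpr D.hcH q.2.2)⟩
  have hf : Function.Surjective f := by
    rintro ⟨h, hh⟩
    obtain ⟨s, hs, k, rfl⟩ := D.hgen h hh
    exact ⟨(⟨s, hs⟩, ⟨c ^ k, Subgroup.zpow_mem_zpowers c k⟩), rfl⟩
  have := Nat.card_le_card_of_surjective f hf
  rwa [Nat.card_prod, Nat.card_zpowers] at this

theorem isCyclic_of {H Q : Subgroup G} {c : G} (D : Dat p H Q c) (hQc : IsCyclic Q)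
    (hc : c ∈ Subgroup.centralizer (Q : Set G)) : IsCyclic H := by
  obtain ⟨⟨q, hqQ⟩, hq⟩ := IsCyclic.exists_generator (α := Q)
  have hoq : orderOf q = Nat.card Q := by
    rw [← Subgroup.orderOf_mk q hqQ]; exact orderOf_eq_card_of_forall_mem_zpowers hq
  have hcomm : Commute q c := Subgroup.mem_centralizer_iff.mp hc q hqQ
  obtain ⟨a, ha⟩ := IsPGroup.iff_card.mp D.hQ
  have hcop : (orderOf q).Coprime (orderOf c) := by
    rw [hoq, ha]
    exact Nat.Coprime.pow_left a D.hcop.symm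
  have ho : orderOf (q * c) = orderOf q * orderOf c :=
    hcomm.orderOf_mul_eq_mul_orderOf_of_coprime hcop
  apply isCyclic_of_orderOf_eq_card (⟨q * c, mul_mem (D.hQH hqQ) D.hcH⟩ : H)
  rw [Subgroup.orderOf_mk]
  apply le_antisymm
  · rw [← Subgroup.orderOf_mk (q * c) (mul_mem (D.hQH hqQ) D.hcH)]
    exact orderOf_le_card
  · rw [ho, hoq]; exact card_le D

omit [Fact p.Prime] [Finite G] in
/-- conjugating the data -/
theorem Dat.conj {H Q : Subgroup G} {c : G} (D : Dat p H Q c) (g : G) :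
    Dat p (cj g H) (cj g Q) (g * c * g⁻¹) where
  hQH := cj_mono g D.hQH
  hQ := isPGroup_cj D.hQ g
  hcH := conj_mem_cj D.hcH
  hcop := by
    have : g * c * g⁻¹ = MulAut.conj g c := rfl
    rw [this, MulEquiv.orderOf_eq]
    exact D.hcop
  hcN := cj_normalizer_le g Q (conj_mem_cj D.hcN)
  hgen := by
    intro h hh
    rw [mem_cj] at hh
    obtain ⟨s, hs, k, hk⟩ := D.hgen _ hh
    refine ⟨g * s * g⁻¹, conj_mem_cj hs, k, ?_⟩
    rw [conj_zpow]
    have : h = g * (g⁻¹ * h * g) * g⁻¹ := by group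
    rw [this, hk]; group

/-- the subgroup `Q ⟨x⟩` for `x` normalizing `Q` -/
def mkH (Q : Subgroup G) (x : G) (hx : x ∈ Subgroup.normalizer (Q : Set G)) : Subgroup G where
  carrier := {h | ∃ s ∈ Q, ∃ k : ℤ, h = s * x ^ k}
  one_mem' := ⟨1, one_mem _, 0, by simp⟩
  mul_mem' := by
    rintro _ _ ⟨s, hs, k, rfl⟩ ⟨s', hs', k', rfl⟩
    refine ⟨s * (x ^ k * s' * (x ^ k)⁻¹), mul_mem hs
      (conj_mem_of_mem_normalizer (zpow_mem hx k) hs'), k + k', ?_⟩
    rw [zpow_add]; group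
  inv_mem' := by
    rintro _ ⟨s, hs, k, rfl⟩
    refine ⟨x ^ (-k) * s⁻¹ * (x ^ (-k))⁻¹, conj_mem_of_mem_normalizer (zpow_mem hx (-k))
      (inv_mem hs), -k, ?_⟩
    group

theorem mkH_spec (Q : Subgroup G) (hQ : IsPGroup p Q) (x : G)
    (hx : x ∈ Subgroup.normalizer (Q : Set G)) :
    (∀ S : Sylow p ↥(mkH Q x hx), (S : Subgroup ↥(mkH Q x hx)).Normal) ∧
    (∀ (S : Sylow p ↥(mkH Q x hx)) [(S : Subgroup ↥(mkH Q x hx)).Normal],
      IsCyclic (↥(mkH Q x hx) ⧸ (S : Subgroup ↥(mkH Q x hx)))) := by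
  set H := mkH Q x hx with hH
  have hQH : Q ≤ H := fun s hs => ⟨s, hs, 0, by simp⟩
  have hxH : x ∈ H := ⟨1, one_mem _, 1, by simp⟩
  have hmem : ∀ w ∈ H, ∃ s ∈ Q, ∃ k : ℤ, w = s * x ^ k := fun w hw => hw
  have hHN : H ≤ Subgroup.normalizer (Q : Set G) := by
    intro w hw
    obtain ⟨s, hs, k, rfl⟩ := hmem w hw
    exact mul_mem (Subgroup.le_normalizer hs) (zpow_mem hx k)
  haveI hQn : (Q.subgroupOf H).Normal := ⟨fun n hn g => by
    rw [Subgroup.mem_subgroupOf] at hn ⊢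
    exact conj_mem_of_mem_normalizer (hHN g.2) hn⟩
  have hQS : ∀ S : Sylow p ↥H, Q.subgroupOf H ≤ S := by
    intro S
    have hp' : IsPGroup p (Q.subgroupOf H) := hQ.comap_subtype
    obtain ⟨S', hS'⟩ := hp'.exists_le_sylow
    obtain ⟨g, hg⟩ := MulAction.exists_smul_eq ↥H S' S
    intro s hs
    rw [← hg, sylow_smul_coe, mem_cj]
    apply hS'
    have := hQn.conj_mem s hs g⁻¹
    rwa [inv_inv] at this
  have hpow : ∀ w : ↥H, ∃ k : ℤ, (QuotientGroup.mk w : ↥H ⧸ Q.subgroupOf H) =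
      (QuotientGroup.mk ⟨x, hxH⟩) ^ k := by
    rintro ⟨w, hw⟩
    obtain ⟨s, hs, k, rfl⟩ := hmem w hw
    refine ⟨k, ?_⟩
    rw [← QuotientGroup.mk_zpow, QuotientGroup.eq, Subgroup.mem_subgroupOf]
    have : (((⟨s * x ^ k, hw⟩ : ↥H)⁻¹ * (⟨x, hxH⟩ : ↥H) ^ k : ↥H) : G) =
        x ^ (-k) * s⁻¹ * (x ^ (-k))⁻¹ := by
      simp only [Subgroup.coe_mul, Subgroup.coe_inv, Subgroup.coe_zpow]; group
    rw [this]
    exact conj_mem_of_mem_normalizer (zpow_mem hx (-k)) (inv_mem hs)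
  have hcommQ : ∀ w u : ↥H, w * u * w⁻¹ * u⁻¹ ∈ Q.subgroupOf H := by
    intro w u
    obtain ⟨k, hk⟩ := hpow w
    obtain ⟨k', hk'⟩ := hpow u
    rw [← QuotientGroup.eq_one_iff]
    simp only [QuotientGroup.mk_mul, QuotientGroup.mk_inv, hk, hk']
    group
  constructor
  · intro S
    refine ⟨fun u hu w => ?_⟩
    have h2 : w * u * w⁻¹ * u⁻¹ ∈ (S : Subgroup ↥H) := hQS S (hcommQ w u)
    have : w * u * w⁻¹ = (w * u * w⁻¹ * u⁻¹) * u := by group
    rw [this]; exact mul_mem h2 hu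
  · intro S hS
    refine ⟨⟨QuotientGroup.mk ⟨x, hxH⟩, fun q => ?_⟩⟩
    obtain ⟨w, rfl⟩ := QuotientGroup.mk_surjective q
    obtain ⟨k, hk⟩ := hpow w
    refine ⟨k, ?_⟩
    show (QuotientGroup.mk ⟨x, hxH⟩ : ↥H ⧸ (S : Subgroup ↥H)) ^ k = QuotientGroup.mk w
    rw [← QuotientGroup.mk_zpow, eq_comm, QuotientGroup.eq]
    rw [← QuotientGroup.mk_zpow, QuotientGroup.eq] at hk
    exact hQS S hk

/-- restricted `p`-by-cyclic subgroups -/
def RPC (p : ℕ) (G : Type*) [Group G] : Prop :=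
  ∀ H : Subgroup G, (∀ S : Sylow p ↥H, (S : Subgroup ↥H).Normal) →
    (∀ (S : Sylow p ↥H) [(S : Subgroup ↥H).Normal], IsCyclic (↥H ⧸ (S : Subgroup ↥H))) →
    IsCyclic H ∨ (∃ n : ℕ, Nonempty (H ≃* DihedralGroup (p ^ n)))

theorem cent_or_invert (hp2 : p ≠ 2) (h : RPC p G) {X : Subgroup G} (hX : IsPGroup p X) {y : G}
    (hy : y ∈ Subgroup.normalizer (X : Set G)) :
    y ∈ Subgroup.centralizer (X : Set G) ∨ (orderOf y = 2 ∧ ∀ u ∈ X, y * u * y⁻¹ = u⁻¹) := by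
  have hp : p.Prime := Fact.out
  obtain ⟨hN, hC⟩ := mkH_spec X hX y hy
  have hXH : X ≤ mkH X y hy := fun s hs => ⟨s, hs, 0, by simp⟩
  have hyH : y ∈ mkH X y hy := ⟨1, one_mem _, 1, by simp⟩
  rcases h _ hN hC with hc | ⟨n, ⟨e⟩⟩
  · left
    rw [Subgroup.mem_centralizer_iff]
    intro u hu
    obtain ⟨γ, hγ⟩ := IsCyclic.exists_generator (α := ↥(mkH X y hy))
    obtain ⟨i, hi⟩ := Subgroup.mem_zpowers_iff.mp (hγ ⟨u, hXH hu⟩)
    obtain ⟨j, hj⟩ := Subgroup.mem_zpowers_iff.mp (hγ ⟨y, hyH⟩)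
    have : (⟨u, hXH hu⟩ : ↥(mkH X y hy)) * ⟨y, hyH⟩ = ⟨y, hyH⟩ * ⟨u, hXH hu⟩ := by
      rw [← hi, ← hj]; exact ((Commute.refl γ).zpow_zpow i j).eq
    exact congrArg Subtype.val this
  · have hrot : ∀ u (hu : u ∈ X), ∃ i, e ⟨u, hXH hu⟩ = DihedralGroup.r i := by
      intro u hu
      rcases he : e ⟨u, hXH hu⟩ with i | i
      · exact ⟨i, rfl⟩
      · exfalso
        have h1 : (e ⟨u, hXH hu⟩) * (e ⟨u, hXH hu⟩) = 1 := by rw [he, DihedralGroup.sr_mul_self]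
        rw [← map_mul] at h1
        have h2 : u * u = 1 := congrArg Subtype.val (e.injective (h1.trans (map_one e).symm))
        obtain ⟨k, hk⟩ := (IsPGroup.iff_orderOf.mp hX) ⟨u, hu⟩
        rw [Subgroup.orderOf_mk] at hk
        have h3 : orderOf u ∣ 2 := orderOf_dvd_of_pow_eq_one (by rw [pow_two]; exact h2)
        have h4 : (orderOf u).Coprime 2 := by
          rw [hk]; exact Nat.Coprime.pow_left k ((Nat.coprime_primes hp Nat.prime_two).mpr hp2)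
        have h5 : orderOf u = 1 := Nat.Coprime.eq_one_of_dvd h4 h3
        rw [orderOf_eq_one_iff] at h5
        have h6 : (⟨u, hXH hu⟩ : ↥(mkH X y hy)) = 1 := Subtype.ext h5
        rw [h6, map_one, DihedralGroup.one_def] at he
        cases he
    rcases hey : e ⟨y, hyH⟩ with j | j
    · left
      rw [Subgroup.mem_centralizer_iff]
      intro u hu
      obtain ⟨i, hi⟩ := hrot u hu
      have : e (⟨u, hXH hu⟩ * ⟨y, hyH⟩) = e (⟨y, hyH⟩ * ⟨u, hXH hu⟩) := by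
        rw [map_mul, map_mul, hi, hey, DihedralGroup.r_mul_r, DihedralGroup.r_mul_r, add_comm]
      exact congrArg Subtype.val (e.injective this)
    · right
      constructor
      · have h1 : e (⟨y, hyH⟩ * ⟨y, hyH⟩) = 1 := by rw [map_mul, hey, DihedralGroup.sr_mul_self]
        have h2 : y * y = 1 := congrArg Subtype.val (e.injective (h1.trans (map_one e).symm))
        have h3 : y ≠ 1 := by
          intro hy1
          have h6 : (⟨y, hyH⟩ : ↥(mkH X y hy)) = 1 := Subtype.ext hy1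
          rw [h6, map_one, DihedralGroup.one_def] at hey
          cases hey
        exact orderOf_eq_prime (by rw [pow_two]; exact h2) h3
      · intro u hu
        obtain ⟨i, hi⟩ := hrot u hu
        have : e (⟨y, hyH⟩ * ⟨u, hXH hu⟩ * ⟨y, hyH⟩⁻¹) = e (⟨u, hXH hu⟩⁻¹) := by
          rw [map_mul, map_mul, map_inv, map_inv, hi, hey]
          simp
        exact congrArg Subtype.val (e.injective this)

end Cfsg.Agent.Lib.Helper8.PBC
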