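import Mathlib
import Cfsg.Agent.Lib.Helper8.PBC

/-!
# Subgroups with a normal Sylow p-subgroup and cyclic quotient: the forward direction
-/

set_option autoImplicit false

namespace Cfsg.Agent.Lib.Helper8.PBC

open Cfsg.Agent.Lib.Helper8

variable {G : Type*} [Group G] [Finite G] {p : ℕ} [Fact p.Prime]

omit [Finite G] in
theorem eq_one_of_sq (hp2 : p ≠ 2) {X : Subgroup G} (hX : IsPGroup p X) {u : G} (hu : u ∈ X)
    (h2 : u * u = 1) : u = 1 := by
  have hp : p.Prime := Fact.out
  obtain ⟨k, hk⟩ := (IsPGroup.iff_orderOf.mp hX) ⟨u, hu⟩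
  rw [Subgroup.orderOf_mk] at hk
  have h3 : orderOf u ∣ 2 := orderOf_dvd_of_pow_eq_one (by rw [pow_two]; exact h2)
  have h4 : (orderOf u).Coprime 2 := by
    rw [hk]; exact Nat.Coprime.pow_left k ((Nat.coprime_primes hp Nat.prime_two).mpr hp2)
  have h5 : orderOf u = 1 := Nat.Coprime.eq_one_of_dvd h4 h3
  rwa [orderOf_eq_one_iff] at h5

theorem centralizer_le_normalizer' (Q : Subgroup G) :
    Subgroup.centralizer (Q : Set G) ≤ Subgroup.normalizer (Q : Set G) := by
  intro c hc
  apply mem_normalizer_of_conj_mem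
  intro a ha
  have : c * a * c⁻¹ = a := by rw [← Subgroup.mem_centralizer_iff.mp hc a ha]; group
  rw [this]; exact ha

theorem forward (hp2 : p ≠ 2) (P : Sylow p G) (h : RPC p G) :
    IsCyclic P ∧
      (Subgroup.normalizer ((P : Subgroup G) : Set G) =
          Subgroup.centralizer ((P : Subgroup G) : Set G) ∨
       ((Subgroup.centralizer ((P : Subgroup G) : Set G)).relIndex
          (Subgroup.normalizer ((P : Subgroup G) : Set G)) = 2 ∧
        ∀ Q : Subgroup G, Q ≤ P → Nat.card Q = p →
          IsMulCommutative ↥(Subgroup.centralizer (Q : Set G)) ∧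
          ∀ x : G, x ∈ Subgroup.normalizer (Q : Set G) → x ∉ Subgroup.centralizer (Q : Set G) →
            orderOf x = 2 ∧ ∀ c : G, c ∈ Subgroup.centralizer (Q : Set G) → x * c * x⁻¹ = c⁻¹)) := by
  have hp : p.Prime := Fact.out
  have hPtop : ∀ S : Sylow p ↥(P : Subgroup G), (S : Subgroup ↥(P : Subgroup G)) = ⊤ := by
    intro S
    have h1 : IsPGroup p (⊤ : Subgroup ↥(P : Subgroup G)) := P.2.to_subgroup ⊤
    exact (S.3 h1 le_top).symm
  have hPc : IsCyclic (P : Subgroup G) := by
    rcases h P (fun S => by rw [hPtop S]; infer_instance) (fun S _ => by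
      haveI : Subsingleton (↥(P : Subgroup G) ⧸ (S : Subgroup ↥(P : Subgroup G))) := by
        have h1 : (S : Subgroup ↥(P : Subgroup G)).index = 1 := Subgroup.index_eq_one.mpr (hPtop S)
        exact (Nat.card_eq_one_iff_unique.mp h1).1
      exact isCyclic_of_subsingleton) with h1 | ⟨n, ⟨e⟩⟩
    · exact h1
    · exfalso
      obtain ⟨a, ha⟩ := IsPGroup.iff_card.mp P.2
      have ha' : Nat.card (P : Subgroup G) = p ^ a := ha
      have h2 : Nat.card (P : Subgroup G) = 2 * p ^ n := by
        rw [Nat.card_congr e.toEquiv, DihedralGroup.nat_card]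
      have h3 : 2 ∣ p ^ a := by rw [← ha', h2]; exact dvd_mul_right _ _
      have h4 := Nat.Prime.dvd_of_dvd_pow Nat.prime_two h3
      exact hp2 ((Nat.prime_dvd_prime_iff_eq Nat.prime_two hp).mp h4).symm
  refine ⟨hPc, ?_⟩
  have hCN := centralizer_le_normalizer' (P : Subgroup G)
  by_cases hNC : Subgroup.normalizer ((P : Subgroup G) : Set G) =
      Subgroup.centralizer ((P : Subgroup G) : Set G)
  · exact Or.inl hNC
  · right
    obtain ⟨t, htN, htC⟩ : ∃ t ∈ Subgroup.normalizer ((P : Subgroup G) : Set G),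
        t ∉ Subgroup.centralizer ((P : Subgroup G) : Set G) := by
      by_contra hcon
      push Not at hcon
      exact hNC (le_antisymm hcon hCN)
    have hinv : ∀ y ∈ Subgroup.normalizer ((P : Subgroup G) : Set G),
        y ∉ Subgroup.centralizer ((P : Subgroup G) : Set G) →
        ∀ u ∈ (P : Subgroup G), y * u * y⁻¹ = u⁻¹ :=
      fun y hy hyc => ((cent_or_invert hp2 h P.2 hy).resolve_left hyc).2
    constructor
    · rw [Subgroup.relIndex_eq_two_iff_exists_notMem_and]
      refine ⟨t, htN, htC, fun b hb => ?_⟩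
      by_cases hbC : b ∈ Subgroup.centralizer ((P : Subgroup G) : Set G)
      · exact Or.inr hbC
      · left
        rw [Subgroup.mem_centralizer_iff]
        intro u hu
        have h1 := hinv t htN htC u hu
        have h2 := hinv b hb hbC u⁻¹ (inv_mem hu)
        have h3 : b * t * u * (b * t)⁻¹ = u := by
          calc b * t * u * (b * t)⁻¹ = b * (t * u * t⁻¹) * b⁻¹ := by group
            _ = u := by rw [h1, h2, inv_inv]
        exact (mul_inv_eq_iff_eq_mul.mp h3).symm
    · intro Q hQP hQp
      have hQpg : IsPGroup p Q := P.2.to_le hQP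
      have hCNQ := centralizer_le_normalizer' Q
      have key : ∀ x ∈ Subgroup.normalizer (Q : Set G), x ∉ Subgroup.centralizer (Q : Set G) →
          orderOf x = 2 ∧ ∀ c ∈ Subgroup.centralizer (Q : Set G), x * c * x⁻¹ = c⁻¹ := by
        intro x hxN hxC
        have h1 := ((cent_or_invert hp2 h hQpg hxN).resolve_left hxC).1
        refine ⟨h1, fun c hc => ?_⟩
        have hxc : x * c ∉ Subgroup.centralizer (Q : Set G) := fun hcon => hxC (by
          have := mul_mem hcon (inv_mem hc); simpa using this)
        have h2 := ((cent_or_invert hp2 h hQpg (mul_mem hxN (hCNQ hc))).resolve_left hxc).1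
        have e1 : x * x = 1 := by rw [← pow_two, ← h1]; exact pow_orderOf_eq_one x
        have e2 : x * c * (x * c) = 1 := by rw [← pow_two, ← h2]; exact pow_orderOf_eq_one _
        have e3 : x⁻¹ = x := inv_eq_of_mul_eq_one_left e1
        rw [e3]
        exact eq_inv_of_mul_eq_one_left (by rw [← e2]; group)
      refine ⟨?_, fun x hx hxc => key x hx hxc⟩
      have htNQ : t ∈ Subgroup.normalizer (Q : Set G) := mem_normalizer_of_conj_mem (fun a ha => by
        rw [hinv t htN htC a (hQP ha)]; exact inv_mem ha)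
      have htCQ : t ∉ Subgroup.centralizer (Q : Set G) := by
        intro hcon
        obtain ⟨q, hq, hq1⟩ : ∃ q ∈ Q, q ≠ 1 := by
          by_contra hcon2
          push Not at hcon2
          have : Q = ⊥ := (Subgroup.eq_bot_iff_forall Q).mpr hcon2
          rw [this, Subgroup.card_bot] at hQp
          exact hp.ne_one hQp.symm
        have h1 := hinv t htN htC q (hQP hq)
        have h2 : t * q * t⁻¹ = q := by
          rw [← Subgroup.mem_centralizer_iff.mp hcon q hq]; group
        apply hq1
        apply eq_one_of_sq hp2 hQpg hq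
        rw [h2] at h1
        calc q * q = q * q⁻¹ := by rw [← h1]
          _ = 1 := mul_inv_cancel q
      have hti := (key t htNQ htCQ).2
      refine ⟨⟨fun a b => Subtype.ext ?_⟩⟩
      have h1 := hti (a * b) (mul_mem a.2 b.2)
      have h2 := hti a a.2
      have h3 := hti b b.2
      have h4 : (a : G)⁻¹ * (b : G)⁻¹ = (b : G)⁻¹ * (a : G)⁻¹ := by
        calc (a : G)⁻¹ * (b : G)⁻¹ = (t * a * t⁻¹) * (t * b * t⁻¹) := by rw [h2, h3]
          _ = t * (a * b) * t⁻¹ := by group
          _ = ((a : G) * b)⁻¹ := h1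
          _ = _ := mul_inv_rev _ _
      have h5 := congrArg Inv.inv h4
      simp only [mul_inv_rev, inv_inv] at h5
      exact h5.symm

end Cfsg.Agent.Lib.Helper8.PBC
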