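import Mathlib
import Cfsg.Agent.Lib.Helper8.PBC2

/-!
# Subgroups with a normal Sylow p-subgroup and cyclic quotient: the backward direction
-/

set_option autoImplicit false

namespace Cfsg.Agent.Lib.Helper8.PBC

open Cfsg.Agent.Lib.Helper8

variable {G : Type*} [Group G] [Finite G] {p : ℕ} [Fact p.Prime]

omit [Finite G] in
theorem isCyclic_of_le' {A B : Subgroup G} (h : A ≤ B) (hB : IsCyclic B) : IsCyclic A :=
  isCyclic_of_surjective (Subgroup.subgroupOfEquivOfLe h) (Subgroup.subgroupOfEquivOfLe h).surjective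

omit [Finite G] in
theorem comm_of_isCyclic {B : Subgroup G} (hB : IsCyclic B) {a b : G} (ha : a ∈ B) (hb : b ∈ B) :
    a * b = b * a := by
  obtain ⟨γ, hγ⟩ := IsCyclic.exists_generator (α := B)
  obtain ⟨i, hi⟩ := Subgroup.mem_zpowers_iff.mp (hγ ⟨a, ha⟩)
  obtain ⟨j, hj⟩ := Subgroup.mem_zpowers_iff.mp (hγ ⟨b, hb⟩)
  have : (⟨a, ha⟩ : B) * ⟨b, hb⟩ = ⟨b, hb⟩ * ⟨a, ha⟩ := by
    rw [← hi, ← hj]; exact ((Commute.refl γ).zpow_zpow i j).eq
  exact congrArg Subtype.val this

/-- case (1) -/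
theorem case_one (P : Sylow p G) (hPc : IsCyclic (P : Subgroup G))
    (hNC : Subgroup.normalizer ((P : Subgroup G) : Set G) =
      Subgroup.centralizer ((P : Subgroup G) : Set G))
    {S : Subgroup G} (hSP : S ≤ P) {c : G} (hc : c ∈ Subgroup.normalizer (S : Set G)) :
    c ∈ Subgroup.centralizer (S : Set G) := by
  have hPL : (P : Subgroup G) ≤ Subgroup.centralizer (S : Set G) := by
    intro u hu
    rw [Subgroup.mem_centralizer_iff]
    intro s hs
    exact comm_of_isCyclic hPc (hSP hs) hu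
  have hcPL : cj c (P : Subgroup G) ≤ Subgroup.centralizer (S : Set G) := by
    intro u hu
    rw [mem_cj] at hu
    rw [Subgroup.mem_centralizer_iff]
    intro s hs
    have h1 : c⁻¹ * s * c ∈ S := by
      have := conj_mem_of_mem_normalizer (inv_mem hc) hs
      rwa [inv_inv] at this
    have h2 := comm_of_isCyclic hPc (hSP h1) hu
    calc s * u = c * ((c⁻¹ * s * c) * (c⁻¹ * u * c)) * c⁻¹ := by group
      _ = c * ((c⁻¹ * u * c) * (c⁻¹ * s * c)) * c⁻¹ := by rw [h2]
      _ = u * s := by group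
  obtain ⟨T, hT, -, hPT, l, hl, hlT⟩ := exists_cj_le_of_le (p := p) (Subgroup.centralizer (S : Set G))
    (isPGroup_cj P.2 c) hcPL P.2 hPL
  have hTP : T = P := P.3 hT hPT
  rw [hTP, cj_cj] at hlT
  have h3 : l * c ∈ Subgroup.normalizer ((P : Subgroup G) : Set G) :=
    mem_normalizer_of_cj_eq (cj_eq_of_le hlT)
  rw [hNC] at h3
  have h4 : l * c ∈ Subgroup.centralizer (S : Set G) := Subgroup.centralizer_le hSP h3
  have : c = l⁻¹ * (l * c) := by group
  rw [this]
  exact mul_mem (inv_mem hl) h4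

/-- case (2) -/
theorem case_two (P : Sylow p G) (hPc : IsCyclic (P : Subgroup G))
    (hB : ∀ Q : Subgroup G, Q ≤ P → Nat.card Q = p →
          IsMulCommutative ↥(Subgroup.centralizer (Q : Set G)) ∧
          ∀ x : G, x ∈ Subgroup.normalizer (Q : Set G) → x ∉ Subgroup.centralizer (Q : Set G) →
            orderOf x = 2 ∧ ∀ c : G, c ∈ Subgroup.centralizer (Q : Set G) → x * c * x⁻¹ = c⁻¹)
    {H S : Subgroup G} {c : G} (D : Dat p H S c) (hSP : S ≤ P) :
    IsCyclic H ∨ (∃ n : ℕ, Nonempty (H ≃* DihedralGroup (p ^ n))) := by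
  have hp : p.Prime := Fact.out
  have hSc : IsCyclic S := isCyclic_of_le' hSP hPc
  by_cases hS : S = ⊥
  · left
    apply isCyclic_of D hSc
    rw [Subgroup.mem_centralizer_iff]
    intro u hu
    rw [hS] at hu
    rw [Subgroup.mem_bot.mp hu]; simp
  · obtain ⟨n, hn⟩ := IsPGroup.iff_card.mp D.hQ
    have hn0 : n ≠ 0 := by
      rintro rfl
      rw [pow_zero] at hn
      exact hS (Subgroup.card_eq_one.mp hn)
    have hdvd : p ∣ Nat.card S := by rw [hn]; exact dvd_pow_self p hn0
    obtain ⟨⟨q, hqS⟩, hq⟩ := exists_prime_orderOf_dvd_card' p hdvd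
    rw [Subgroup.orderOf_mk] at hq
    obtain ⟨⟨σ, hσS⟩, hσ⟩ := IsCyclic.exists_generator (α := S)
    have hoσ : orderOf σ = p ^ n := by
      rw [← hn, ← Subgroup.orderOf_mk σ hσS]; exact orderOf_eq_card_of_forall_mem_zpowers hσ
    have hpowS : ∀ u ∈ S, ∃ i : ℤ, σ ^ i = u := by
      intro u hu
      obtain ⟨i, hi⟩ := Subgroup.mem_zpowers_iff.mp (hσ ⟨u, hu⟩)
      exact ⟨i, by simpa using congrArg Subtype.val hi⟩
    obtain ⟨i, hi⟩ := hpowS q hqS
    obtain ⟨j, hj⟩ := hpowS _ (conj_mem_of_mem_normalizer D.hcN hσS)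
    have hcq : c * q * c⁻¹ = q ^ j := by
      rw [← hi, ← conj_zpow, ← hj, ← zpow_mul, ← zpow_mul, mul_comm]
    have hQS : Subgroup.zpowers q ≤ S := Subgroup.zpowers_le.mpr hqS
    have hcNQ : c ∈ Subgroup.normalizer ((Subgroup.zpowers q : Subgroup G) : Set G) := by
      apply mem_normalizer_of_conj_mem
      intro a ha
      obtain ⟨k, rfl⟩ := Subgroup.mem_zpowers_iff.mp ha
      rw [← conj_zpow, hcq]
      exact zpow_mem (zpow_mem (Subgroup.mem_zpowers q) j) k
    obtain ⟨hCc, hx⟩ := hB (Subgroup.zpowers q) (hQS.trans hSP) (by rw [Nat.card_zpowers, hq])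
    have hSC : S ≤ Subgroup.centralizer ((Subgroup.zpowers q : Subgroup G) : Set G) := by
      intro u hu
      rw [Subgroup.mem_centralizer_iff]
      intro a ha
      exact comm_of_isCyclic hSc (hQS ha) hu
    by_cases hcQ : c ∈ Subgroup.centralizer ((Subgroup.zpowers q : Subgroup G) : Set G)
    · left
      apply isCyclic_of D hSc
      rw [Subgroup.mem_centralizer_iff]
      intro u hu
      exact congrArg Subtype.val (hCc.is_comm.comm ⟨u, hSC hu⟩ ⟨c, hcQ⟩)
    · right
      obtain ⟨hc2, hcinv⟩ := hx c hcNQ hcQ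
      have hσinv : c * σ * c⁻¹ = σ⁻¹ := hcinv σ (hSC hσS)
      have hcc : c * c = 1 := by rw [← pow_two, ← hc2]; exact pow_orderOf_eq_one c
      have hcσ : orderOf (c * σ) = 2 := by
        apply orderOf_eq_prime
        · rw [pow_two]
          calc c * σ * (c * σ) = (c * σ * c⁻¹) * (c * c) * σ := by group
            _ = 1 := by rw [hσinv, hcc, mul_one, inv_mul_cancel]
        · intro h1
          apply hcQ
          have : c = σ⁻¹ := eq_inv_of_mul_eq_one_left h1
          rw [this]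
          exact inv_mem (hSC hσS)
      obtain ⟨e1⟩ := Cfsg.Agent.Lib.Helper2.nonempty_closure_pair_mulEquiv_dihedral hc2 hcσ
      have hccσ : c * (c * σ) = σ := by rw [← mul_assoc, hcc, one_mul]
      rw [hccσ, hoσ] at e1
      have hcl : Subgroup.closure {c, c * σ} = H := by
        apply le_antisymm
        · rw [Subgroup.closure_le]
          rintro s (rfl | rfl)
          · exact D.hcH
          · exact mul_mem D.hcH (D.hQH hσS)
        · have hc' : c ∈ Subgroup.closure {c, c * σ} := Subgroup.subset_closure (Or.inl rfl)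
          have hσ' : σ ∈ Subgroup.closure {c, c * σ} := by
            have h5 := mul_mem hc' (Subgroup.subset_closure (Or.inr rfl) :
              c * σ ∈ Subgroup.closure {c, c * σ})
            rwa [hccσ] at h5
          intro h hh
          obtain ⟨s, hs, k, rfl⟩ := D.hgen h hh
          obtain ⟨i', rfl⟩ := hpowS s hs
          exact mul_mem (zpow_mem hσ' i') (zpow_mem hc' k)
      exact ⟨n, ⟨(MulEquiv.subgroupCongr hcl).symm.trans e1⟩⟩

theorem backward (P : Sylow p G) (hPc : IsCyclic P)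
    (halt : Subgroup.normalizer ((P : Subgroup G) : Set G) =
          Subgroup.centralizer ((P : Subgroup G) : Set G) ∨
       ((Subgroup.centralizer ((P : Subgroup G) : Set G)).relIndex
          (Subgroup.normalizer ((P : Subgroup G) : Set G)) = 2 ∧
        ∀ Q : Subgroup G, Q ≤ P → Nat.card Q = p →
          IsMulCommutative ↥(Subgroup.centralizer (Q : Set G)) ∧
          ∀ x : G, x ∈ Subgroup.normalizer (Q : Set G) → x ∉ Subgroup.centralizer (Q : Set G) →
            orderOf x = 2 ∧ ∀ c : G, c ∈ Subgroup.centralizer (Q : Set G) → x * c * x⁻¹ = c⁻¹)) :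
    RPC p G := by
  intro H hN hC
  have hPc' : IsCyclic (P : Subgroup G) := hPc
  obtain ⟨S₀, c₀, D₀⟩ := exists_dat H hN hC
  obtain ⟨g, hg⟩ := exists_cj_le_sylow P D₀.hQ
  have D := D₀.conj g
  suffices hs : IsCyclic (cj g H) ∨ ∃ n : ℕ, Nonempty (cj g H ≃* DihedralGroup (p ^ n)) by
    let ε : H ≃* cj g H := Subgroup.equivMapOfInjective H _ (MulAut.conj g).injective
    rcases hs with h1 | ⟨n, ⟨e⟩⟩
    · left; exact isCyclic_of_surjective ε.symm ε.symm.surjective
    · right; exact ⟨n, ⟨ε.trans e⟩⟩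
  rcases halt with hNC | ⟨-, hB⟩
  · left
    exact isCyclic_of D (isCyclic_of_le' hg hPc') (case_one P hPc' hNC hg D.hcN)
  · exact case_two P hPc' hB D hg

end Cfsg.Agent.Lib.Helper8.PBC
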