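import Mathlib
import Cfsg.Agent.Tr.Dihedral4
import Cfsg.Agent.Lib.Helper2.DihedralHom
import Cfsg.Agent.Lib.Helper8.Klein
import Cfsg.Agent.Lib.Helper8.PRank
import Cfsg.Agent.Lib.Helper8.OddAct
import Cfsg.Agent.Lib.Helper8.TTD
import Cfsg.Agent.S0228

/-!
# Subgroups with a normal Sylow 2-subgroup and cyclic quotient
-/

set_option autoImplicit false

namespace Cfsg.Agent.Lib.Helper8.TBC

open Cfsg.Agent.Lib.Helper8 Cfsg.Agent.Tr.Dih

variable {G : Type*} [Group G] [Finite G]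

/-- data of a 2-by-cyclic subgroup -/
structure Dat (H Q : Subgroup G) (c : G) : Prop where
  hQH : Q ≤ H
  hQ : IsPGroup 2 Q
  hcH : c ∈ H
  hodd : Odd (orderOf c)
  hcN : c ∈ Subgroup.normalizer (Q : Set G)
  hgen : ∀ h ∈ H, ∃ s ∈ Q, ∃ k : ℤ, h = s * c ^ k

theorem exists_dat (H : Subgroup G) (hN : ∀ S : Sylow 2 ↥H, (S : Subgroup ↥H).Normal)
    (hC : ∀ (S : Sylow 2 ↥H) [(S : Subgroup ↥H).Normal], IsCyclic (↥H ⧸ (S : Subgroup ↥H))) :
    ∃ (Q : Subgroup G) (c : G), Dat H Q c := by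
  haveI : Fact (Nat.Prime 2) := ⟨Nat.prime_two⟩
  let S : Sylow 2 ↥H := default
  haveI := hN S
  haveI := hC S
  obtain ⟨γ, hγ⟩ := IsCyclic.exists_generator (α := ↥H ⧸ (S : Subgroup ↥H))
  obtain ⟨g, rfl⟩ := QuotientGroup.mk_surjective γ
  have hdodd : ¬ 2 ∣ (S : Subgroup ↥H).index := S.not_dvd_index
  obtain ⟨a, ha⟩ := IsPGroup.iff_card.mp S.2
  have hcop : (Nat.card (↥H ⧸ (S : Subgroup ↥H))).Coprime (2 ^ a) := by
    apply Nat.Coprime.pow_right
    exact ((Nat.Prime.coprime_iff_not_dvd Nat.prime_two).mpr hdodd).symm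
  obtain ⟨y, hy⟩ := (powCoprime hcop).surjective (QuotientGroup.mk g)
  have hy' : y ^ (2 ^ a) = QuotientGroup.mk g := hy
  obtain ⟨i, hi⟩ := Subgroup.mem_zpowers_iff.mp (hγ y)
  have hmk : (QuotientGroup.mk (g ^ (2 ^ a)) : ↥H ⧸ (S : Subgroup ↥H)) ^ i = QuotientGroup.mk g := by
    rw [QuotientGroup.mk_pow, ← zpow_natCast, ← zpow_mul, mul_comm, zpow_mul, hi, zpow_natCast, hy']
  refine ⟨(S : Subgroup ↥H).map H.subtype, ((g ^ (2 ^ a) : ↥H) : G), ?_⟩
  constructor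
  · exact Subgroup.map_subtype_le _
  · exact S.2.map _
  · exact (g ^ (2 ^ a) : ↥H).2
  · rw [Subgroup.orderOf_coe]
    have h1 : (g ^ (2 ^ a)) ^ (S : Subgroup ↥H).index = 1 := by
      rw [← pow_mul, ← ha, (S : Subgroup ↥H).card_mul_index, pow_card_eq_one']
    have h2 := orderOf_dvd_of_pow_eq_one h1
    rw [← Nat.not_even_iff_odd, even_iff_two_dvd]
    exact fun h => hdodd (h.trans h2)
  · apply mem_normalizer_of_conj_mem
    rintro _ ⟨s, hs, rfl⟩
    exact ⟨g ^ (2 ^ a) * s * (g ^ (2 ^ a))⁻¹, (hN S).conj_mem s hs _, rfl⟩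
  · intro h hh
    obtain ⟨j, hj⟩ := Subgroup.mem_zpowers_iff.mp (hγ (QuotientGroup.mk ⟨h, hh⟩))
    refine ⟨((⟨h, hh⟩ * (g ^ (2 ^ a)) ^ (-(i * j)) : ↥H) : G), ⟨_, ?_, rfl⟩, i * j, ?_⟩
    · show _ ∈ (S : Subgroup ↥H)
      rw [← QuotientGroup.eq_one_iff, QuotientGroup.mk_mul, QuotientGroup.mk_zpow, zpow_neg,
        zpow_mul, hmk, hj, mul_inv_cancel]
    · simp

omit [Finite G] in
theorem eq_one_of_odd {c : G} (hodd : Odd (orderOf c)) (h : c ^ 2 = 1) : c = 1 := by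
  rw [← orderOf_eq_one_iff]
  exact Nat.Coprime.eq_one_of_dvd (Nat.coprime_two_right.mpr hodd) (orderOf_dvd_of_pow_eq_one h)

theorem card_le {H Q : Subgroup G} {c : G} (D : Dat H Q c) :
    Nat.card H ≤ Nat.card Q * orderOf c := by
  let f : Q × Subgroup.zpowers c → H := fun p =>
    ⟨p.1 * p.2, mul_mem (D.hQH p.1.2) (Subgroup.zpowers_le.mpr D.hcH p.2.2)⟩
  have hf : Function.Surjective f := by
    rintro ⟨h, hh⟩
    obtain ⟨s, hs, k, rfl⟩ := D.hgen h hh
    exact ⟨(⟨s, hs⟩, ⟨c ^ k, Subgroup.zpow_mem_zpowers c k⟩), rfl⟩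
  have := Nat.card_le_card_of_surjective f hf
  rwa [Nat.card_prod, Nat.card_zpowers] at this

theorem isCyclic_of {H Q : Subgroup G} {c : G} (D : Dat H Q c) (hQc : IsCyclic Q)
    (hc : c ∈ Subgroup.centralizer (Q : Set G)) : IsCyclic H := by
  obtain ⟨⟨q, hqQ⟩, hq⟩ := IsCyclic.exists_generator (α := Q)
  have hoq : orderOf q = Nat.card Q := by
    rw [← Subgroup.orderOf_mk q hqQ]; exact orderOf_eq_card_of_forall_mem_zpowers hq
  have hcomm : Commute q c := Subgroup.mem_centralizer_iff.mp hc q hqQ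
  obtain ⟨a, ha⟩ := IsPGroup.iff_card.mp D.hQ
  have hcop : (orderOf q).Coprime (orderOf c) := by
    rw [hoq, ha]
    exact Nat.Coprime.pow_left a (Nat.coprime_two_left.mpr D.hodd)
  have ho : orderOf (q * c) = orderOf q * orderOf c :=
    hcomm.orderOf_mul_eq_mul_orderOf_of_coprime hcop
  apply isCyclic_of_orderOf_eq_card (⟨q * c, mul_mem (D.hQH hqQ) D.hcH⟩ : H)
  rw [Subgroup.orderOf_mk]
  apply le_antisymm
  · rw [← Subgroup.orderOf_mk (q * c) (mul_mem (D.hQH hqQ) D.hcH)]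
    exact orderOf_le_card
  · rw [ho, hoq]; exact card_le D

omit [Finite G] in
theorem sub_dihedral {m : ℕ} {T : Subgroup G} (e : T ≃* DihedralGroup m) {Q : Subgroup G}
    (hQT : Q ≤ T) (hQ : IsPGroup 2 Q) (hnc : ¬ IsCyclic Q) :
    (∃ k : ℕ, Nonempty (Q ≃* DihedralGroup (2 ^ k))) ∧
    ∃ K : Subgroup G, K ≤ Q ∧ Nat.card K = 4 ∧ ∀ x ∈ K, x ^ 2 = 1 := by
  have h1 : ¬ Q ≤ rot T e := fun h => hnc (isCyclic_of_le_rot e h)
  obtain ⟨x, hxQ, hxr⟩ := SetLike.not_le_iff_exists.mp h1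
  have hCc : IsCyclic (Q ⊓ rot T e : Subgroup G) := isCyclic_of_le_rot e inf_le_right
  obtain ⟨⟨g, hg⟩, hgen⟩ := IsCyclic.exists_generator (α := (Q ⊓ rot T e : Subgroup G))
  have hgQ : g ∈ Q := hg.1
  have hgr : g ∈ rot T e := hg.2
  have hx2 : x ^ 2 = 1 := sq_eq_one_of_not_mem_rot e (hQT hxQ) hxr
  have hx1 : x ≠ 1 := fun h => hxr (h ▸ one_mem _)
  have hox : orderOf x = 2 := orderOf_eq_prime hx2 hx1
  have hxx : x * x = 1 := by rw [← pow_two]; exact hx2
  -- reflections `x * w`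
  have hrefl : ∀ w ∈ Q ⊓ rot T e, orderOf (x * w) = 2 := by
    intro w hw
    have hxw : x * w ∉ rot T e := fun h => hxr (by
      have := mul_mem h (inv_mem hw.2); simpa using this)
    exact orderOf_eq_prime (sq_eq_one_of_not_mem_rot e (hQT (mul_mem hxQ hw.1)) hxw)
      (fun h => hxw (h ▸ one_mem _))
  have hxxw : ∀ w : G, x * (x * w) = w := fun w => by rw [← mul_assoc, hxx, one_mul]
  have hcl : Subgroup.closure {x, x * g} = Q := by
    apply le_antisymm
    · rw [Subgroup.closure_le]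
      rintro s (rfl | rfl)
      · exact hxQ
      · exact mul_mem hxQ hgQ
    · have hxc : x ∈ Subgroup.closure {x, x * g} := Subgroup.subset_closure (Or.inl rfl)
      have hgc : g ∈ Subgroup.closure {x, x * g} := by
        have h5 := mul_mem hxc (Subgroup.subset_closure (Or.inr rfl) :
          x * g ∈ Subgroup.closure {x, x * g})
        rwa [hxxw] at h5
      have hzc : ∀ w ∈ Q ⊓ rot T e, w ∈ Subgroup.closure {x, x * g} := by
        intro w hw
        obtain ⟨k, hk⟩ := Subgroup.mem_zpowers_iff.mp (hgen ⟨w, hw⟩)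
        have : g ^ k = w := by simpa using congrArg Subtype.val hk
        rw [← this]
        exact zpow_mem hgc k
      intro q hq
      by_cases hqr : q ∈ rot T e
      · exact hzc q ⟨hq, hqr⟩
      · have h2 := mul_inv_mem_rot e (hQT hxQ) (hQT hq) hxr hqr
        have h3 := hzc (x⁻¹ * q) (Subgroup.mem_inf.mpr ⟨mul_mem (inv_mem hxQ) hq, h2⟩)
        have : q = x * (x⁻¹ * q) := by group
        rw [this]
        exact mul_mem hxc h3
  obtain ⟨k, hk⟩ := (IsPGroup.iff_orderOf.mp hQ) ⟨g, hgQ⟩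
  rw [Subgroup.orderOf_mk] at hk
  constructor
  · obtain ⟨e1⟩ := Cfsg.Agent.Lib.Helper2.nonempty_closure_pair_mulEquiv_dihedral hox
      (hrefl g hg)
    rw [hxxw, hk] at e1
    exact ⟨k, ⟨(MulEquiv.subgroupCongr hcl).symm.trans e1⟩⟩
  · have hg1 : g ≠ 1 := by
      intro h
      apply hnc
      rw [← hcl, h, mul_one, Set.pair_eq_singleton, ← Subgroup.zpowers_eq_closure]
      infer_instance
    obtain ⟨b, hb⟩ := TTD.exists_invol_pow hg1 (N := k) (by rw [← hk]; exact pow_orderOf_eq_one g)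
    have hzm : g ^ 2 ^ b ∈ Q ⊓ rot T e := pow_mem hg _
    obtain ⟨e1⟩ := Cfsg.Agent.Lib.Helper2.nonempty_closure_pair_mulEquiv_dihedral hox
      (hrefl _ hzm)
    rw [hxxw, hb] at e1
    refine ⟨Subgroup.closure {x, x * g ^ 2 ^ b}, ?_, ?_, ?_⟩
    · rw [Subgroup.closure_le]
      rintro s (rfl | rfl)
      · exact hxQ
      · exact mul_mem hxQ hzm.1
    · rw [Nat.card_congr e1.toEquiv, DihedralGroup.nat_card]
    · intro w hw
      have h2 : ∀ u : DihedralGroup 2, u ^ 2 = 1 := by decide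
      have h3 := h2 (e1 ⟨w, hw⟩)
      rw [← map_pow] at h3
      exact congrArg Subtype.val (e1.injective (h3.trans (map_one e1).symm))

theorem order_three {Q : Subgroup G} (h4 : Nat.card Q = 4) (h2 : ∀ x ∈ Q, x ^ 2 = 1) {c : G}
    (hcN : c ∈ Subgroup.normalizer (Q : Set G)) (hodd : Odd (orderOf c))
    (hcQ : c ∉ Subgroup.centralizer (Q : Set G)) : c ^ 3 ∈ Subgroup.centralizer (Q : Set G) := by
  have hKl : IsKleinFour Q := Cfsg.Agent.Tr.Dih.isKleinFour_of h4 h2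
  obtain ⟨a, haQ, hca⟩ : ∃ a ∈ Q, c * a * c⁻¹ ≠ a := by
    by_contra hcon
    push Not at hcon
    apply hcQ
    rw [Subgroup.mem_centralizer_iff]
    intro x hx
    exact (mul_inv_eq_iff_eq_mul.mp (hcon x hx)).symm
  obtain ⟨b, hb⟩ : ∃ b, b = c * a * c⁻¹ := ⟨_, rfl⟩
  have hbQ : b ∈ Q := by rw [hb]; exact conj_mem_of_mem_normalizer hcN haQ
  have hba : b ≠ a := by rw [hb]; exact hca
  have ha1 : a ≠ 1 := by
    rintro rfl
    apply hca
    group
  have hb1 : b ≠ 1 := by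
    intro h
    apply ha1
    rw [hb] at h
    have : a = c⁻¹ * (c * a * c⁻¹) * c := by group
    rw [this, h]; group
  have hcases : ∀ z ∈ Q, z = 1 ∨ z = a ∨ z = b ∨ z = a * b := by
    intro z hz
    by_contra hcon
    push Not at hcon
    obtain ⟨h1, h2', h3, h4'⟩ := hcon
    apply h4'
    have := IsKleinFour.eq_mul_of_ne_all (G := Q) (x := ⟨a, haQ⟩) (y := ⟨b, hbQ⟩) (z := ⟨z, hz⟩)
      (fun h => ha1 (congrArg Subtype.val h)) (fun h => hb1 (congrArg Subtype.val h))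
      (fun h => hba (congrArg Subtype.val h).symm) (fun h => h1 (congrArg Subtype.val h))
      (fun h => h2' (congrArg Subtype.val h)) (fun h => h3 (congrArg Subtype.val h))
    exact congrArg Subtype.val this
  have hcb : c * b * c⁻¹ = a * b := by
    rcases hcases _ (conj_mem_of_mem_normalizer hcN hbQ) with h | h | h | h
    · exfalso
      apply hb1
      have : b = c⁻¹ * (c * b * c⁻¹) * c := by group
      rw [this, h]; group
    · exfalso
      apply hca
      apply OddAct.fix_of_sq_fix hodd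
      calc c ^ 2 * a * (c ^ 2)⁻¹ = c * (c * a * c⁻¹) * c⁻¹ := by
            simp only [pow_succ, pow_zero, one_mul]; group
        _ = a := by rw [← hb]; exact h
    · exfalso
      apply hba
      have h5 : c * b * c⁻¹ = c * a * c⁻¹ := by rw [h, hb]
      simpa using h5
    · exact h
  have hab : a * b = b * a := klein_comm hKl haQ hbQ
  have hbb : b * b = 1 := klein_mul_self hKl hbQ
  have hcab : c * (a * b) * c⁻¹ = a := by
    calc c * (a * b) * c⁻¹ = (c * a * c⁻¹) * (c * b * c⁻¹) := by group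
      _ = b * (a * b) := by rw [hcb, ← hb]
      _ = a := by rw [hab, ← mul_assoc, hbb, one_mul]
  have h3a : c ^ 3 * a * (c ^ 3)⁻¹ = a := by
    calc c ^ 3 * a * (c ^ 3)⁻¹ = c * (c * (c * a * c⁻¹) * c⁻¹) * c⁻¹ := by
          simp only [pow_succ, pow_zero, one_mul]; group
      _ = a := by rw [← hb, hcb, hcab]
  have h3b : c ^ 3 * b * (c ^ 3)⁻¹ = b := by
    calc c ^ 3 * b * (c ^ 3)⁻¹ = c * (c ^ 3 * a * (c ^ 3)⁻¹) * c⁻¹ := by
          rw [hb]; simp only [pow_succ, pow_zero, one_mul]; group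
      _ = b := by rw [h3a, hb]
  rw [Subgroup.mem_centralizer_iff]
  intro z hz
  have e1 : a * c ^ 3 = c ^ 3 * a := (mul_inv_eq_iff_eq_mul.mp h3a).symm
  have e2 : b * c ^ 3 = c ^ 3 * b := (mul_inv_eq_iff_eq_mul.mp h3b).symm
  rcases hcases z hz with h | h | h | h
  · rw [h]; simp
  · rw [h]; exact e1
  · rw [h]; exact e2
  · rw [h, mul_assoc, e2, ← mul_assoc, e1, mul_assoc]

theorem main_dihedral {m : ℕ} {H Q T : Subgroup G} {c : G} (D : Dat H Q c)
    (e : T ≃* DihedralGroup m) (hT2 : IsPGroup 2 T) (hQT : Q ≤ T)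
    (hK : ∀ K : Subgroup G, K ≤ T → Nat.card K = 4 → (∀ k ∈ K, k ^ 2 = 1) →
      Subgroup.centralizer (K : Set G) = K) :
    IsCyclic H ∨ (∃ n : ℕ, Nonempty (H ≃* DihedralGroup (2 ^ n))) ∨
      Nonempty (H ≃* alternatingGroup (Fin 4)) := by
  have hcop : (orderOf c).Coprime 2 := Nat.coprime_two_right.mpr D.hodd
  by_cases hcQ : c ∈ Subgroup.centralizer (Q : Set G)
  · by_cases hQc : IsCyclic Q
    · exact Or.inl (isCyclic_of D hQc hcQ)
    · obtain ⟨⟨k, ⟨e1⟩⟩, K, hKQ, hK4, hK2⟩ := sub_dihedral e hQT D.hQ hQc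
      have h1 : c ∈ K := by
        rw [← hK K (hKQ.trans hQT) hK4 hK2]
        exact Subgroup.centralizer_le hKQ hcQ
      have hc1 : c = 1 := eq_one_of_odd D.hodd (hK2 c h1)
      have hHQ : H = Q := le_antisymm (fun h hh => by
        obtain ⟨s, hs, k, rfl⟩ := D.hgen h hh
        simpa [hc1] using hs) D.hQH
      exact Or.inr (Or.inl ⟨k, ⟨(MulEquiv.subgroupCongr hHQ).trans e1⟩⟩)
  · obtain ⟨h4, h2⟩ := (centralizes_or_four e hT2 hQT D.hcN hcop).resolve_left hcQ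
    right; right
    have hCQ := hK Q hQT h4 h2
    have h3 : c ^ 3 = 1 := by
      have h5 : c ^ 3 ∈ Q := by rw [← hCQ]; exact order_three h4 h2 D.hcN D.hodd hcQ
      exact eq_one_of_odd (Odd.of_dvd_nat D.hodd (orderOf_pow_dvd 3)) (h2 _ h5)
    have hc1 : c ≠ 1 := by rintro rfl; exact hcQ (one_mem _)
    haveI : Fact (Nat.Prime 3) := ⟨Nat.prime_three⟩
    have hoc : orderOf c = 3 := orderOf_eq_prime h3 hc1
    have hcard : Nat.card H = 12 := by
      have h5 := card_le D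
      rw [h4, hoc] at h5
      have h6 : 4 ∣ Nat.card H := h4 ▸ Subgroup.card_dvd_of_le D.hQH
      have h7 : 3 ∣ Nat.card H := by
        rw [← hoc, ← Subgroup.orderOf_mk c D.hcH]; exact orderOf_dvd_natCard _
      have h8 : Nat.card H ≠ 0 := Nat.card_pos.ne'
      omega
    apply Cfsg.Agent.S0228.result hcard
    intro z hz hzc
    obtain ⟨s, hs, k, hk⟩ := D.hgen z z.2
    rw [Subgroup.mem_center_iff] at hzc
    have hzs : s⁻¹ * (z : G) = (z : G) * s⁻¹ :=
      congrArg Subtype.val (hzc ⟨s⁻¹, D.hQH (inv_mem hs)⟩)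
    have hzcc : c * (z : G) = (z : G) * c := congrArg Subtype.val (hzc ⟨c, D.hcH⟩)
    have hz2 : (z : G) * (z : G) = 1 := by
      have := pow_orderOf_eq_one z
      rw [hz, pow_two] at this
      exact congrArg Subtype.val this
    have hs2 : s⁻¹ * s⁻¹ = 1 := by
      have := h2 _ (inv_mem hs)
      rwa [pow_two] at this
    have hck : c ^ k = s⁻¹ * (z : G) := by rw [hk]; group
    have hck2 : c ^ (k * 2) = 1 := by
      rw [zpow_mul, hck, zpow_two]
      calc s⁻¹ * (z : G) * (s⁻¹ * (z : G)) = s⁻¹ * ((z : G) * s⁻¹) * (z : G) := by group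
        _ = s⁻¹ * (s⁻¹ * (z : G)) * (z : G) := by rw [hzs]
        _ = (s⁻¹ * s⁻¹) * ((z : G) * (z : G)) := by group
        _ = 1 := by rw [hs2, hz2, one_mul]
    have hck1 : c ^ k = 1 := by
      rw [← orderOf_dvd_iff_zpow_eq_one, hoc] at hck2 ⊢
      omega
    have hzQ : (z : G) ∈ Q := by rw [hk, hck1, mul_one]; exact hs
    apply hcQ
    exact centralizes_four_of_fix h4 D.hcN hcop hzQ (by rw [Subgroup.orderOf_coe]; exact hz) hzcc

end Cfsg.Agent.Lib.Helper8.TBC
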