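import Mathlib
import Cfsg.Agent.Lib.Helper8.TBC

/-!
# Subgroups with a normal Sylow 2-subgroup and cyclic quotient: the characterisation
-/

set_option autoImplicit false

namespace Cfsg.Agent.Lib.Helper8.TBC

open Cfsg.Agent.Lib.Helper8 Cfsg.Agent.Tr.Dih

variable {G : Type*} [Group G] [Finite G]

omit [Finite G] in
theorem isCyclic_of_le {A B : Subgroup G} (h : A ≤ B) (hB : IsCyclic B) : IsCyclic A :=
  isCyclic_of_surjective (Subgroup.subgroupOfEquivOfLe h) (Subgroup.subgroupOfEquivOfLe h).surjective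

omit [Finite G] in
theorem le_centralizer_of {K : Subgroup G} (hK4 : Nat.card K = 4) (hK2 : ∀ k ∈ K, k ^ 2 = 1) :
    K ≤ Subgroup.centralizer (K : Set G) := by
  have hKl : IsKleinFour K := Cfsg.Agent.Tr.Dih.isKleinFour_of hK4 hK2
  intro x hx
  rw [Subgroup.mem_centralizer_iff]
  intro y hy
  exact klein_comm hKl hy hx

theorem backward (P : Sylow 2 G)
    (h : IsCyclic P ∨
      ((∃ n : ℕ, 1 ≤ n ∧ Nonempty ((P : Subgroup G) ≃* DihedralGroup (2 ^ n))) ∧
        ∀ K : Subgroup G, K ≤ P → Nat.card K = 4 → (∀ k ∈ K, k ^ 2 = 1) →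
          Subgroup.centralizer (K : Set G) = K))
    (H : Subgroup G) (hN : ∀ S : Sylow 2 ↥H, (S : Subgroup ↥H).Normal)
    (hC : ∀ (S : Sylow 2 ↥H) [(S : Subgroup ↥H).Normal], IsCyclic (↥H ⧸ (S : Subgroup ↥H))) :
    IsCyclic H ∨ (∃ n : ℕ, Nonempty (H ≃* DihedralGroup (2 ^ n))) ∨
      Nonempty (H ≃* alternatingGroup (Fin 4)) := by
  haveI : Fact (Nat.Prime 2) := ⟨Nat.prime_two⟩
  obtain ⟨Q, c, D⟩ := exists_dat H hN hC
  obtain ⟨P', hQP'⟩ := D.hQ.exists_le_sylow
  let ε : (P : Subgroup G) ≃* (P' : Subgroup G) := Sylow.equiv P P'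
  rcases h with hcyc | ⟨⟨n, hn, ⟨e⟩⟩, hK⟩
  · left
    have hcyc' : IsCyclic (P : Subgroup G) := hcyc
    have hP'c : IsCyclic (P' : Subgroup G) := isCyclic_of_surjective ε ε.surjective
    have hQc : IsCyclic Q := isCyclic_of_le hQP' hP'c
    apply isCyclic_of D hQc
    exact centralizes_cyclic_two hQc D.hQ D.hcN (Nat.coprime_two_right.mpr D.hodd)
  · apply main_dihedral D (ε.symm.trans e) P'.2 hQP'
    intro K hKP' hK4 hK2
    obtain ⟨g, hg⟩ := MulAction.exists_smul_eq G P' P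
    have hg' : cj g (P' : Subgroup G) = P := by rw [← sylow_smul_coe, hg]
    have h1 := hK (cj g K) (by rw [← hg']; exact cj_mono g hKP') (by rw [card_cj]; exact hK4) (by
      intro k hk
      rw [mem_cj] at hk
      have h2 := hK2 _ hk
      have h3 : k ^ 2 = g * (g⁻¹ * k * g) ^ 2 * g⁻¹ := by
        simp only [pow_succ, pow_zero, one_mul]; group
      rw [h3, h2]; group)
    apply le_antisymm
    · intro x hx
      have h2 : g * x * g⁻¹ ∈ Subgroup.centralizer ((cj g K : Subgroup G) : Set G) := by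
        rw [Subgroup.mem_centralizer_iff]
        intro y hy
        rw [SetLike.mem_coe, mem_cj] at hy
        have h3 := Subgroup.mem_centralizer_iff.mp hx _ hy
        calc y * (g * x * g⁻¹) = g * ((g⁻¹ * y * g) * x) * g⁻¹ := by group
          _ = g * (x * (g⁻¹ * y * g)) * g⁻¹ := by rw [h3]
          _ = _ := by group
      rw [h1, mem_cj] at h2
      have h4 : g⁻¹ * (g * x * g⁻¹) * g = x := by group
      rwa [h4] at h2
    · exact le_centralizer_of hK4 hK2

theorem card_A4 : Nat.card (alternatingGroup (Fin 4)) = 12 := by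
  have h := two_mul_card_alternatingGroup (α := Fin 4)
  rw [Fintype.card_perm, Fintype.card_fin] at h
  rw [Nat.card_eq_fintype_card]
  have : Nat.factorial 4 = 24 := by decide
  omega

theorem A4_not_comm : ¬ ∀ a b : alternatingGroup (Fin 4), a * b = b * a := by
  intro h
  have h1 := h ⟨Equiv.swap 0 1 * Equiv.swap 2 3, by rw [Equiv.Perm.mem_alternatingGroup]; decide⟩
    ⟨Equiv.swap 0 1 * Equiv.swap 1 2, by rw [Equiv.Perm.mem_alternatingGroup]; decide⟩
  revert h1
  decide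

theorem dihedral_comm {m : ℕ} (h : ∀ a b : DihedralGroup m, a * b = b * a) : m ∣ 2 := by
  have h1 := h (DihedralGroup.r 1) (DihedralGroup.sr 0)
  rw [DihedralGroup.r_mul_sr, DihedralGroup.sr_mul_r, DihedralGroup.sr.injEq] at h1
  have h2 : ((2 : ℕ) : ZMod m) = 0 := by
    push_cast
    linear_combination -h1
  exact (ZMod.natCast_eq_zero_iff 2 m).mp h2

/-- the key step of the forward direction -/
theorem self_centralizing
    (h : ∀ H : Subgroup G, (∀ S : Sylow 2 ↥H, (S : Subgroup ↥H).Normal) →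
        (∀ (S : Sylow 2 ↥H) [(S : Subgroup ↥H).Normal], IsCyclic (↥H ⧸ (S : Subgroup ↥H))) →
        IsCyclic H ∨ (∃ n : ℕ, Nonempty (H ≃* DihedralGroup (2 ^ n))) ∨
          Nonempty (H ≃* alternatingGroup (Fin 4)))
    {K : Subgroup G} (hK4 : Nat.card K = 4) (hK2 : ∀ k ∈ K, k ^ 2 = 1) :
    Subgroup.centralizer (K : Set G) = K := by
  haveI : Fact (Nat.Prime 2) := ⟨Nat.prime_two⟩
  have hKl : IsKleinFour K := Cfsg.Agent.Tr.Dih.isKleinFour_of hK4 hK2
  apply le_antisymm _ (le_centralizer_of hK4 hK2)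
  intro x hx
  have hxc : ∀ k ∈ K, k * x = x * k := fun k hk => Subgroup.mem_centralizer_iff.mp hx k hk
  have hcomm : ∀ (k : K) (y : Subgroup.zpowers x), Commute (K.subtype k) ((Subgroup.zpowers x).subtype y) := by
    rintro ⟨k, hk⟩ ⟨y, hy⟩
    obtain ⟨j, rfl⟩ := Subgroup.mem_zpowers_iff.mp hy
    exact (show Commute k x from hxc k hk).zpow_right j
  set φ := MonoidHom.noncommCoprod K.subtype (Subgroup.zpowers x).subtype hcomm with hφ
  set H := φ.range with hH
  have hmem : ∀ w ∈ H, ∃ k ∈ K, ∃ j : ℤ, w = k * x ^ j := by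
    rintro _ ⟨⟨⟨k, hk⟩, ⟨y, hy⟩⟩, rfl⟩
    obtain ⟨j, rfl⟩ := Subgroup.mem_zpowers_iff.mp hy
    exact ⟨k, hk, j, rfl⟩
  have hKH : K ≤ H := by
    intro k hk
    exact ⟨(⟨k, hk⟩, 1), by simp [hφ]⟩
  have hxH : x ∈ H := ⟨(1, ⟨x, Subgroup.mem_zpowers x⟩), by simp [hφ]⟩
  have hcommH : ∀ a b : ↥H, a * b = b * a := by
    rintro ⟨a, ha⟩ ⟨b, hb⟩
    obtain ⟨k, hk, j, rfl⟩ := hmem a ha
    obtain ⟨k', hk', j', rfl⟩ := hmem b hb
    apply Subtype.ext
    have c1 : Commute k k' := klein_comm hKl hk hk'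
    have c2 : Commute k (x ^ j') := (show Commute k x from hxc k hk).zpow_right j'
    have c3 : Commute (x ^ j) k' := ((show Commute k' x from hxc k' hk').zpow_right j).symm
    have c4 : Commute (x ^ j) (x ^ j') := (Commute.refl x).zpow_zpow j j'
    exact ((c1.mul_right c2).mul_left (c3.mul_right c4)).eq
  have hnorm : ∀ S : Sylow 2 ↥H, (S : Subgroup ↥H).Normal := by
    intro S
    refine ⟨fun n hn g => ?_⟩
    rw [hcommH g n, mul_inv_cancel_right]
    exact hn
  have hcyc : ∀ (S : Sylow 2 ↥H) [(S : Subgroup ↥H).Normal],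
      IsCyclic (↥H ⧸ (S : Subgroup ↥H)) := by
    intro S hS
    refine ⟨⟨QuotientGroup.mk ⟨x, hxH⟩, fun q => ?_⟩⟩
    obtain ⟨⟨w, hw⟩, rfl⟩ := QuotientGroup.mk_surjective q
    obtain ⟨k, hk, j, rfl⟩ := hmem w hw
    have hkS : (⟨k, hKH hk⟩ : ↥H) ∈ (S : Subgroup ↥H) := by
      have hpK : IsPGroup 2 K := IsPGroup.of_card (n := 2) (by rw [hK4]; norm_num)
      have hp : IsPGroup 2 (K.subgroupOf H) := hpK.comap_subtype
      obtain ⟨S', hS'⟩ := hp.exists_le_sylow
      haveI := Sylow.unique_of_normal S hS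
      rw [Subsingleton.elim S S']
      exact hS' (Subgroup.mem_subgroupOf.mpr hk)
    refine ⟨j, ?_⟩
    show (QuotientGroup.mk ⟨x, hxH⟩ : ↥H ⧸ (S : Subgroup ↥H)) ^ j = QuotientGroup.mk ⟨k * x ^ j, hw⟩
    rw [← QuotientGroup.mk_zpow, eq_comm, QuotientGroup.eq]
    have : (⟨k * x ^ j, hw⟩ : ↥H)⁻¹ * (⟨x, hxH⟩ : ↥H) ^ j = (⟨k, hKH hk⟩ : ↥H)⁻¹ := by
      apply Subtype.ext
      have c2 : k * x ^ j = x ^ j * k := ((show Commute k x from hxc k hk).zpow_right j).eq
      simp only [Subgroup.coe_mul, Subgroup.coe_inv, Subgroup.coe_zpow]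
      rw [c2]; group
    rw [this]
    exact inv_mem hkS
  rcases h H hnorm hcyc with h1 | ⟨n, ⟨e⟩⟩ | ⟨⟨e⟩⟩
  · exfalso
    have hKc : IsCyclic K := isCyclic_of_le hKH h1
    obtain ⟨⟨κ, hκK⟩, hκ⟩ := IsCyclic.exists_generator (α := K)
    have h3 : orderOf (⟨κ, hκK⟩ : K) = 4 := by
      rw [orderOf_eq_card_of_forall_mem_zpowers hκ, hK4]
    rw [Subgroup.orderOf_mk] at h3
    have h4 := orderOf_dvd_of_pow_eq_one (hK2 κ hκK)
    rw [h3] at h4
    omega
  · have h2 : 2 ^ n ∣ 2 := by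
      apply dihedral_comm
      intro a b
      have := hcommH (e.symm a) (e.symm b)
      rw [← map_mul, ← map_mul] at this
      exact e.symm.injective this
    have h3 : Nat.card H ≤ 4 := by
      rw [Nat.card_congr e.toEquiv, DihedralGroup.nat_card]
      have := Nat.le_of_dvd (by norm_num) h2
      omega
    have h4 : K = H := Subgroup.eq_of_le_of_card_ge hKH (by rw [hK4]; exact h3)
    rw [h4]; exact hxH
  · exfalso
    apply A4_not_comm
    intro a b
    have := hcommH (e.symm a) (e.symm b)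
    rw [← map_mul, ← map_mul] at this
    exact e.symm.injective this

theorem forward (P : Sylow 2 G)
    (h : ∀ H : Subgroup G, (∀ S : Sylow 2 ↥H, (S : Subgroup ↥H).Normal) →
        (∀ (S : Sylow 2 ↥H) [(S : Subgroup ↥H).Normal], IsCyclic (↥H ⧸ (S : Subgroup ↥H))) →
        IsCyclic H ∨ (∃ n : ℕ, Nonempty (H ≃* DihedralGroup (2 ^ n))) ∨
          Nonempty (H ≃* alternatingGroup (Fin 4))) :
    IsCyclic P ∨
      ((∃ n : ℕ, 1 ≤ n ∧ Nonempty ((P : Subgroup G) ≃* DihedralGroup (2 ^ n))) ∧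
        ∀ K : Subgroup G, K ≤ P → Nat.card K = 4 → (∀ k ∈ K, k ^ 2 = 1) →
          Subgroup.centralizer (K : Set G) = K) := by
  haveI : Fact (Nat.Prime 2) := ⟨Nat.prime_two⟩
  have hPtop : ∀ S : Sylow 2 ↥(P : Subgroup G), (S : Subgroup ↥(P : Subgroup G)) = ⊤ := by
    intro S
    have h1 : IsPGroup 2 (⊤ : Subgroup ↥(P : Subgroup G)) := P.2.to_subgroup ⊤
    exact (S.3 h1 le_top).symm
  rcases h P (fun S => by rw [hPtop S]; infer_instance) (fun S _ => by
    haveI : Subsingleton (↥(P : Subgroup G) ⧸ (S : Subgroup ↥(P : Subgroup G))) := by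
      have h1 : (S : Subgroup ↥(P : Subgroup G)).index = 1 := Subgroup.index_eq_one.mpr (hPtop S)
      exact (Nat.card_eq_one_iff_unique.mp h1).1
    exact isCyclic_of_subsingleton) with h1 | ⟨n, ⟨e⟩⟩ | ⟨⟨e⟩⟩
  · exact Or.inl h1
  · rcases Nat.eq_zero_or_pos n with rfl | hn
    · left
      have h2 : Nat.card (P : Subgroup G) = 2 := by
        rw [Nat.card_congr e.toEquiv, DihedralGroup.nat_card]; norm_num
      exact isCyclic_of_prime_card (α := (P : Subgroup G)) h2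
    · right
      exact ⟨⟨n, hn, ⟨e⟩⟩, fun K _ hK4 hK2 => self_centralizing h hK4 hK2⟩
  · exfalso
    obtain ⟨a, ha⟩ := IsPGroup.iff_card.mp P.2
    have h2 : Nat.card (P : Subgroup G) = 12 := by rw [Nat.card_congr e.toEquiv, card_A4]
    have h3 : 3 ∣ 2 ^ a := by
      have : Nat.card (P : Subgroup G) = 2 ^ a := ha
      rw [← this, h2]; norm_num
    have h4 := Nat.Prime.dvd_of_dvd_pow Nat.prime_three h3
    omega

end Cfsg.Agent.Lib.Helper8.TBC
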